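import Cfsg.Agent.H641.TC6.GTor

/-!
# S2464, `F₄(q)`: the tori of order `q⁴ - q² + 1` and `q⁴ + 1` (helper641)

* `TorD.comm_mem` : commutators of `N(A)` lie in `T`;
* `TorD.comm_memA` : commutators of `N(A)` lie in `A` if `m = 2 n`, `n` odd;
* `tor12_F4`, `tor8_F4`.
-/

set_option autoImplicit false

namespace Cfsg.Agent.H641.TC6

open Subgroup Cfsg Cfsg.Lie Cfsg.Agent.H56.Exc Cfsg.Agent.H946.Num Cfsg.Agent.H983.KG2
open Cfsg.Agent.H436 (Prim exists_prim)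

universe u

namespace TorD

variable {G : Type*} [Group G] [Finite G] {m n w : ℕ} {A T : Subgroup G}

theorem relIndex (h : TorD G m n w A T) : T.relIndex (normalizer (T : Set G)) = w := by
  have h1 : Nat.card ↥T * T.relIndex (normalizer (T : Set G)) = Nat.card ↥(normalizer (T : Set G)) := by
    rw [← Subgroup.card_mul_index (T.subgroupOf (normalizer (T : Set G))),
      Nat.card_congr (Subgroup.subgroupOfEquivOfLe (le_normalizer (H := T))).toEquiv]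
    rfl
  rw [h.cardT, ← h.normA, h.cardN, mul_comm w m] at h1
  have hm : 0 < m := h.cardT ▸ Nat.card_pos
  rw [← h.normA]
  exact Nat.eq_of_mul_eq_mul_left hm h1

theorem relIndexA (h : TorD G m n w A T) : T.relIndex (normalizer (A : Set G)) = w := by
  rw [h.normA]; exact h.relIndex

theorem conj_memT (h : TorD G m n w A T) {x t : G} (hx : x ∈ normalizer (A : Set G)) (ht : t ∈ T) :
    x * t * x⁻¹ ∈ T := by
  rw [h.normA] at hx
  exact conj_mem hx ht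

/-- an element of prime order `r` of `A` and the action on it -/
theorem exists_hom (h : TorD G m n w A T) {r : ℕ} (hr : r.Prime) (hrn : r ∣ n) :
    ∃ (C : Type) (_ : Group C) (_ : IsCyclic C) (f : ↥(normalizer (A : Set G)) →* C),
      ∀ x, f x = 1 ↔ (x : G) ∈ T := by
  have hfact : Fact r.Prime := ⟨hr⟩
  obtain ⟨z', hz'⟩ := exists_prime_orderOf_dvd_card' (G := ↥A) r (by rw [h.cardA]; exact hrn)
  obtain ⟨z, hzA, hz⟩ : ∃ z ∈ A, orderOf z = r := ⟨z', z'.2, by rw [Subgroup.orderOf_coe, hz']⟩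
  have hz1 : z ≠ 1 := by
    rintro rfl
    rw [orderOf_one] at hz
    exact hr.one_lt.ne hz
  have hmem : ∀ x ∈ normalizer (A : Set G), x ∈ normalizer (zpowers z : Set G) := by
    intro x hx
    apply mem_norm
    rintro _ ⟨j, rfl⟩
    show x * z ^ j * x⁻¹ ∈ _
    rw [← conj_zpow]
    apply zpow_mem
    exact mem_zpowers_of_cyclic h.cycT (h.le hzA) (h.le (conj_mem hx hzA)) (by rw [orderOf_conj])
  let φ : ↥(normalizer (A : Set G)) →* MulAut ↥(zpowers z) :=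
    (zpowers z).normalizerMonoidHom.comp (Subgroup.inclusion hmem)
  have hφ1 : ∀ y : ↥(normalizer (A : Set G)), φ y = 1 ↔ (y : G) ∈ T := by
    intro y
    rw [← h.cent z hzA hz1]
    constructor
    · intro h1
      have h2 : (φ y) ⟨z, mem_zpowers z⟩ = ⟨z, mem_zpowers z⟩ := by rw [h1]; rfl
      have h3 : (y : G) * z * (y : G)⁻¹ = z := congrArg Subtype.val h2
      rw [mem_centralizer_singleton_iff]
      rwa [mul_inv_eq_iff_eq_mul] at h3
    · intro h1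
      rw [mem_centralizer_singleton_iff] at h1
      ext ⟨a, ha⟩
      obtain ⟨k, rfl⟩ := ha
      show (y : G) * (z ^ k) * (y : G)⁻¹ = z ^ k
      have h2 : Commute (y : G) z := h1
      rw [(h2.zpow_right k).eq, mul_inv_cancel_right]
  have hcard : Nat.card ↥(zpowers z) = r := by rw [Nat.card_zpowers, hz]
  have h1 := IsCyclic.mulAutMulEquiv ↥(zpowers z)
  rw [hcard] at h1
  have hcyc := ZMod.isCyclic_units_prime hr
  refine ⟨(ZMod r)ˣ, inferInstance, hcyc, h1.toMonoidHom.comp φ, fun x => ?_⟩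
  rw [← hφ1 x]
  show h1 (φ x) = 1 ↔ _
  rw [MulEquiv.map_eq_one_iff]

theorem comm_mem (h : TorD G m n w A T) {r : ℕ} (hr : r.Prime) (hrn : r ∣ n) {x y : G}
    (hx : x ∈ normalizer (A : Set G)) (hy : y ∈ normalizer (A : Set G)) : x * y * x⁻¹ * y⁻¹ ∈ T := by
  obtain ⟨C, hC1, hC2, f, hf⟩ := h.exists_hom hr hrn
  have hcomm : ∀ a b : C, a * b = b * a := fun a b => (IsCyclic.commGroup (α := C)).mul_comm a b
  have h1 : f (⟨x, hx⟩ * ⟨y, hy⟩ * ⟨x, hx⟩⁻¹ * ⟨y, hy⟩⁻¹) = 1 := by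
    simp only [map_mul, map_inv]
    rw [hcomm (f ⟨x, hx⟩) (f ⟨y, hy⟩)]
    group
  exact (hf _).1 h1

/-- the involution of `T` is central in `N(T)` -/
theorem pow_comm (h : TorD G m n w A T) {t y : G} (ht : t ∈ T)
    (hy : y ∈ normalizer (A : Set G)) (ht2 : t ^ 2 = 1) : y * t * y⁻¹ = t := by
  by_cases ht1 : t = 1
  · rw [ht1]; group
  have ho : orderOf t = 2 := orderOf_eq_prime ht2 ht1
  have h1 : y * t * y⁻¹ ∈ zpowers t :=
    mem_zpowers_of_cyclic h.cycT ht (h.conj_memT hy ht) (by rw [orderOf_conj])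
  rw [mem_zpowers_iff] at h1
  obtain ⟨k, hk⟩ := h1
  rcases Int.even_or_odd' k with ⟨j, rfl | rfl⟩
  · exfalso
    rw [zpow_mul] at hk
    have h2 : t ^ (2 : ℤ) = 1 := by exact_mod_cast ht2
    rw [h2, one_zpow] at hk
    apply ht1
    have h3 := congrArg (fun z => y⁻¹ * z * y) hk
    simpa [mul_assoc] using h3.symm
  · rw [zpow_add, zpow_mul, zpow_one] at hk
    have h2 : t ^ (2 : ℤ) = 1 := by exact_mod_cast ht2
    rw [h2, one_zpow, one_mul] at hk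
    exact hk.symm

theorem comm_memT (h : TorD G m n w A T) (hm : m = 2 * n) {t y : G} (ht : t ∈ T)
    (hy : y ∈ normalizer (A : Set G)) : t * y * t⁻¹ * y⁻¹ ∈ A := by
  have h1 : y * t * y⁻¹ ∈ T := h.conj_memT hy ht
  have e1 : t * y * t⁻¹ * y⁻¹ = t * (y * t * y⁻¹)⁻¹ := by group
  rw [e1]
  refine h.mem (mul_mem ht (inv_mem h1)) ?_
  apply orderOf_dvd_of_pow_eq_one
  have hc : Commute t (y * t * y⁻¹)⁻¹ := (show Commute t (y * t * y⁻¹) from comm_of_cyc h.cycT ht h1).inv_right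
  rw [hc.mul_pow, inv_pow]
  have h2 : (y * t * y⁻¹) ^ n = y * t ^ n * y⁻¹ := by
    rw [conj_pow]
  have h3 : y * t ^ n * y⁻¹ = t ^ n := by
    refine h.pow_comm (pow_mem ht n) hy ?_
    rw [← pow_mul, mul_comm n 2, ← hm, ← h.cardT]
    have := Subgroup.orderOf_dvd_natCard T ht
    exact orderOf_dvd_iff_pow_eq_one.1 this
  rw [h2, h3, mul_inv_cancel]

theorem comm_memA (h : TorD G m n w A T) (hm : m = 2 * n) {r : ℕ} (hr : r.Prime) (hrn : r ∣ n) {x y : G}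
    (hx : x ∈ normalizer (A : Set G)) (hy : y ∈ normalizer (A : Set G)) : x * y * x⁻¹ * y⁻¹ ∈ A := by
  obtain ⟨C, hC1, hC2, f, hf⟩ := h.exists_hom hr hrn
  obtain ⟨N, hN⟩ : ∃ N, N = normalizer (A : Set G) := ⟨_, rfl⟩
  have hAN : A ≤ normalizer (A : Set G) := le_normalizer
  have hnor : (A.subgroupOf (normalizer (A : Set G))).Normal := inferInstance
  let g : ↥(normalizer (A : Set G)) ⧸ (A.subgroupOf (normalizer (A : Set G))) →* C :=
    QuotientGroup.lift _ f (fun a ha => (hf a).2 (h.le ha))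
  have hker : g.ker ≤ center _ := by
    intro a ha
    obtain ⟨a, rfl⟩ := QuotientGroup.mk'_surjective _ a
    rw [mem_center_iff]
    intro b
    obtain ⟨b, rfl⟩ := QuotientGroup.mk'_surjective _ b
    have h1 : f a = 1 := ha
    have h2 : (a : G) ∈ T := (hf a).1 h1
    have h3 := h.comm_memT hm h2 b.2
    rw [← map_mul, ← map_mul]
    symm
    rw [← mul_inv_eq_one, ← map_inv, ← map_mul]
    rw [QuotientGroup.mk'_apply, QuotientGroup.eq_one_iff, mem_subgroupOf]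
    have e1 : ((a * b * (b * a)⁻¹ : ↥(normalizer (A : Set G))) : G) = (a : G) * b * (a : G)⁻¹ * (b : G)⁻¹ := by
      push_cast
      group
    rw [e1]
    exact h3
  have hcomm := (g.isMulCommutative_of_isCyclic_of_ker_le_center hker).is_comm.comm
    (QuotientGroup.mk' _ ⟨x, hx⟩) (QuotientGroup.mk' _ ⟨y, hy⟩)
  rw [← map_mul, ← map_mul, ← mul_inv_eq_one, ← map_inv, ← map_mul,
    QuotientGroup.mk'_apply, QuotientGroup.eq_one_iff, mem_subgroupOf] at hcomm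
  have e1 : (((⟨x, hx⟩ : ↥(normalizer (A : Set G))) * ⟨y, hy⟩ * (⟨y, hy⟩ * ⟨x, hx⟩)⁻¹ :
      ↥(normalizer (A : Set G))) : G) = x * y * x⁻¹ * y⁻¹ := by
    push_cast
    group
  rw [e1] at hcomm
  exact hcomm

end TorD

variable {F : Type u} [Field F] [Fintype F] {q : ℕ}

/-- **The torus of order `q⁴ - q² + 1` of `F₄(q)`.** -/
theorem tor12_F4 (hq : Fintype.card F = q) (h2 : 2 ≤ q) : ∃ T : Subgroup ↥(chevF4.group F),
    TorD ↥(chevF4.group F) (N12 q) (N12 q) 12 T T ∧ IsCyclic ↥T ∧ Nat.card ↥T = q ^ 4 - q ^ 2 + 1 ∧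
    (∀ a ∈ T, ∀ b ∈ T, a * b = b * a) ∧ (∀ t ∈ T, t ≠ 1 → centralizer {t} = T) ∧
    Nat.card ↥(normalizer (T : Set ↥(chevF4.group F))) = 12 * (q ^ 4 - q ^ 2 + 1) ∧
    T.relIndex (normalizer (T : Set ↥(chevF4.group F))) = 12 ∧
    ∀ x ∈ normalizer (T : Set ↥(chevF4.group F)), ∀ y ∈ normalizer (T : Set ↥(chevF4.group F)),
      x * y * x⁻¹ * y⁻¹ ∈ T := by
  obtain ⟨r, hr⟩ := exists_prim (q := q) (e := 12) (by omega) (by norm_num) (by omega)
  have hm : ((N12 q : ℕ) : ℤ) = 1 - (q : ℤ) ^ 2 + (q : ℤ) ^ 4 := by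
    rw [cast_N12]; ring
  have h7 : 12 < r := Cfsg.Agent.H56.Exc.prim_lt hr (by norm_num)
  have hrn : r ∣ N12 q := by
    have h3 := prim_dvd_12 hr
    rw [← hm] at h3
    exact_mod_cast h3
  obtain ⟨T, h1, h2', h3', h4, h5⟩ := Cfsg.Agent.H129.CycCard.card_F4_12 hq hm hr.prime (prim_dvd_12 hr)
  have hT : Nat.card ↥T = N12 q := Nat.dvd_antisymm h2' (by rwa [one_mul] at h3')
  obtain ⟨A, hA⟩ := exists_torD (G := ↥(chevF4.group F)) (w := 12) h1 hT dvd_rfl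
    (fun s hs hsn => ⟨12, big_F4_12 hq hm (Cfsg.Agent.H983.KG2.prim_of_order hs (by omega) (by norm_num) (od_N12 hs hsn))⟩)
    hr.prime hrn
    (K := (q : ℤ) ^ 24 * ((q : ℤ) ^ 2 - 1) * ((q : ℤ) ^ 6 - 1) * ((q : ℤ) ^ 8 - 1) * ((q : ℤ) ^ 6 - 1) * ((q : ℤ) ^ 2 + 1))
    (by rw [ord_F4 hq, hm]; ring) (by push_cast; exact Kap.kap_F4_12 _ (prim_phi_12 hr)) h7
  have hAT : A = T := by
    apply Subgroup.eq_of_le_of_card_ge hA.le
    rw [hA.cardA, hA.cardT]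
  subst hAT
  refine ⟨A, hA, h1, hT, fun a ha b hb => comm_of_cyc h1 ha hb, hA.cent, hA.cardN, hA.relIndex,
    fun x hx y hy => hA.comm_mem hr.prime hrn hx hy⟩

theorem two_mul_half {q : ℕ} (ho : Odd q) : q ^ 4 + 1 = 2 * ((q ^ 4 + 1) / 2) := by
  have : Even (q ^ 4 + 1) := (ho.pow).add_odd odd_one
  exact (Nat.two_mul_div_two_of_even this).symm

theorem odd_half {q : ℕ} (ho : Odd q) : ¬ 2 ∣ (q ^ 4 + 1) / 2 := by
  obtain ⟨k, rfl⟩ := ho
  intro h
  have h1 : 4 ∣ (2 * k + 1) ^ 4 + 1 := by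
    rw [two_mul_half ⟨k, rfl⟩]
    exact Nat.mul_dvd_mul_left 2 h
  have e : (2 * k + 1) ^ 4 + 1 = 4 * (4 * k ^ 4 + 8 * k ^ 3 + 6 * k ^ 2 + 2 * k) + 2 := by ring
  rw [e] at h1
  omega

/-- **The torus of order `q⁴ + 1` of `F₄(q)`, `q` odd.** -/
theorem tor8_F4 (hq : Fintype.card F = q) (ho : Odd q) (h2 : 3 ≤ q) : ∃ A T : Subgroup ↥(chevF4.group F),
    TorD ↥(chevF4.group F) (q ^ 4 + 1) ((q ^ 4 + 1) / 2) 8 A T ∧ A ≤ T ∧ IsCyclic ↥T ∧
    Nat.card ↥T = q ^ 4 + 1 ∧ Nat.card ↥A = (q ^ 4 + 1) / 2 ∧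
    (∀ a ∈ T, ∀ b ∈ T, a * b = b * a) ∧ (∀ t ∈ A, t ≠ 1 → centralizer {t} = T) ∧
    normalizer (A : Set ↥(chevF4.group F)) = normalizer (T : Set ↥(chevF4.group F)) ∧
    Nat.card ↥(normalizer (T : Set ↥(chevF4.group F))) = 8 * (q ^ 4 + 1) ∧
    T.relIndex (normalizer (T : Set ↥(chevF4.group F))) = 8 ∧
    (∀ x ∈ normalizer (T : Set ↥(chevF4.group F)), ∀ y ∈ normalizer (T : Set ↥(chevF4.group F)),
      x * y * x⁻¹ * y⁻¹ ∈ A) ∧
    (∀ t ∈ T, t ^ 2 = 1 → ∀ y ∈ normalizer (T : Set ↥(chevF4.group F)), y * t * y⁻¹ = t) := by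
  obtain ⟨r, hr⟩ := exists_prim (q := q) (e := 8) (by omega) (by norm_num) (by omega)
  have hm : ((N8 q : ℕ) : ℤ) = 1 + (q : ℤ) ^ 4 := by
    unfold N8; push_cast; ring
  have h7 : 8 < r := Cfsg.Agent.H56.Exc.prim_lt hr (by norm_num)
  have hn2 : N8 q = 2 * ((q ^ 4 + 1) / 2) := two_mul_half ho
  have hrN : r ∣ N8 q := by
    have h3 := prim_dvd_8 hr
    rw [← hm] at h3
    exact_mod_cast h3
  have hrn : r ∣ (q ^ 4 + 1) / 2 := by
    rw [hn2] at hrN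
    refine (hr.prime.dvd_mul.1 hrN).resolve_left fun h => ?_
    have := Nat.le_of_dvd (by norm_num) h
    omega
  obtain ⟨T, h1, h2', h3', h4, h5⟩ := Cfsg.Agent.H129.CycCard.card_F4_8 hq hm hr.prime (prim_dvd_8 hr) (by omega)
  have hT : Nat.card ↥T = N8 q := Nat.dvd_antisymm h2' (by rwa [one_mul] at h3')
  obtain ⟨A, hA⟩ := exists_torD (G := ↥(chevF4.group F)) (w := 8) (n := (q ^ 4 + 1) / 2) h1 hT
    (by rw [hn2]; exact dvd_mul_left _ _)
    (fun s hs hsn => ⟨8, big_F4_8 hq hm (Cfsg.Agent.H983.KG2.prim_of_order hs (by omega) (by norm_num)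
      (od_N8 hs (hsn.trans (by rw [hn2]; exact dvd_mul_left _ _)) (by
        rintro rfl
        exact odd_half ho hsn)))⟩)
    hr.prime hrn
    (K := (q : ℤ) ^ 24 * ((q : ℤ) ^ 2 - 1) * ((q : ℤ) ^ 6 - 1) * ((q : ℤ) ^ 4 - 1) * ((q : ℤ) ^ 12 - 1))
    (by rw [ord_F4 hq, hm]; ring) (by push_cast; exact Kap.kap_F4_8 _ (prim_phi_8 hr)) h7
  refine ⟨A, T, hA, hA.le, h1, hT, hA.cardA, fun a ha b hb => comm_of_cyc h1 ha hb, hA.cent, hA.normA, ?_,
    hA.relIndex, ?_, ?_⟩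
  · rw [← hA.normA]; exact hA.cardN
  · rw [← hA.normA]
    exact fun x hx y hy => hA.comm_memA hn2 hr.prime hrn hx hy
  · rw [← hA.normA]
    exact fun t ht ht2 y hy => hA.pow_comm ht hy ht2

end Cfsg.Agent.H641.TC6
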